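import Mathlib.CategoryTheory.Adjunction.Basic

/-!
Abstract mate calculus for a square of adjunctions (used for Dual3 base-change compatibilities).
-/

set_option autoImplicit false

open CategoryTheory

namespace Groth.Agent.Lib.Helper6.BCMates

universe v₁ v₂ v₃ v₄ u₁ u₂ u₃ u₄

variable {CX : Type u₁} {CY : Type u₂} {CX' : Type u₃} {CY' : Type u₄}
  [Category.{v₁} CX] [Category.{v₂} CY] [Category.{v₃} CX'] [Category.{v₄} CY']
  {F : CX ⥤ CY} {F' : CX' ⥤ CY'} {G : CY' ⥤ CY} {G' : CX' ⥤ CX}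
  {a : CY ⥤ CX} {a' : CY' ⥤ CX'} {L : CY ⥤ CY'} {L' : CX ⥤ CX'}

/-- The comparison map `G' a' M ⟶ a G M`. -/
noncomputable def xiA (adj : F ⊣ a) (adj' : F' ⊣ a') (e : G' ⋙ F ≅ F' ⋙ G) (M : CY') :
    G'.obj (a'.obj M) ⟶ a.obj (G.obj M) :=
  (adj.homEquiv _ _) (e.hom.app (a'.obj M) ≫ G.map (adj'.counit.app M))

/-- The base change map `L' a K ⟶ a' L K`. -/
noncomputable def bcMapA (adj : F ⊣ a) (adj' : F' ⊣ a') (e : G' ⋙ F ≅ F' ⋙ G)
    (adjg : L ⊣ G) (adjg' : L' ⊣ G') (K : CY) (hξ : IsIso (xiA adj adj' e (L.obj K))) :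
    L'.obj (a.obj K) ⟶ a'.obj (L.obj K) :=
  haveI := hξ
  L'.map (a.map (adjg.unit.app K)) ≫ L'.map (inv (xiA adj adj' e (L.obj K))) ≫
    adjg'.counit.app (a'.obj (L.obj K))

/-- The base change map `L F K ⟶ F' L' K`. -/
noncomputable def bcPushA (e : G' ⋙ F ≅ F' ⋙ G) (adjg : L ⊣ G) (adjg' : L' ⊣ G') (K : CX) :
    L.obj (F.obj K) ⟶ F'.obj (L'.obj K) :=
  (adjg.homEquiv _ _).symm (F.map (adjg'.unit.app K) ≫ e.hom.app (L'.obj K))

theorem xiA_naturality (adj : F ⊣ a) (adj' : F' ⊣ a') (e : G' ⋙ F ≅ F' ⋙ G)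
    {M₁ M₂ : CY'} (φ : M₁ ⟶ M₂) :
    G'.map (a'.map φ) ≫ xiA adj adj' e M₂ = xiA adj adj' e M₁ ≫ a.map (G.map φ) := by
  unfold xiA
  rw [← Adjunction.homEquiv_naturality_left, ← Adjunction.homEquiv_naturality_right]
  congr 1
  have h1 := e.hom.naturality (a'.map φ)
  simp only [Functor.comp_obj, Functor.comp_map] at h1
  rw [← Category.assoc, h1, Category.assoc, Category.assoc, ← G.map_comp, ← G.map_comp,
    Adjunction.counit_naturality]

theorem bcPushA_transpose (e : G' ⋙ F ≅ F' ⋙ G) (adjg : L ⊣ G) (adjg' : L' ⊣ G') (K : CX) :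
    adjg.unit.app (F.obj K) ≫ G.map (bcPushA e adjg adjg' K) =
      F.map (adjg'.unit.app K) ≫ e.hom.app (L'.obj K) := by
  show (adjg.homEquiv _ _) (bcPushA e adjg adjg' K) = _
  rw [bcPushA, Equiv.apply_symm_apply]

theorem bcMapA_transpose (adj : F ⊣ a) (adj' : F' ⊣ a') (e : G' ⋙ F ≅ F' ⋙ G)
    (adjg : L ⊣ G) (adjg' : L' ⊣ G') (K : CY) (hξ : IsIso (xiA adj adj' e (L.obj K))) :
    adjg'.unit.app (a.obj K) ≫ G'.map (bcMapA adj adj' e adjg adjg' K hξ) =
      a.map (adjg.unit.app K) ≫ inv (xiA adj adj' e (L.obj K)) := by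
  show (adjg'.homEquiv _ _) (bcMapA adj adj' e adjg adjg' K hξ) = _
  unfold bcMapA
  rw [← L'.map_comp_assoc, Adjunction.homEquiv_naturality_left, Adjunction.homEquiv_unit,
    Adjunction.right_triangle_components, Category.comp_id]

theorem xiA_transpose (adj : F ⊣ a) (adj' : F' ⊣ a') (e : G' ⋙ F ≅ F' ⋙ G) (M : CY') :
    F.map (xiA adj adj' e M) ≫ adj.counit.app (G.obj M) =
      e.hom.app (a'.obj M) ≫ G.map (adj'.counit.app M) := by
  show (adj.homEquiv _ _).symm (xiA adj adj' e M) = _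
  unfold xiA
  rw [Equiv.symm_apply_apply]

theorem unit_compatA (adj : F ⊣ a) (adj' : F' ⊣ a') (e : G' ⋙ F ≅ F' ⋙ G)
    (adjg : L ⊣ G) (adjg' : L' ⊣ G') (hξ : ∀ M : CY', IsIso (xiA adj adj' e M)) (M : CX) :
    adj'.unit.app (L'.obj M) = L'.map (adj.unit.app M) ≫
      bcMapA adj adj' e adjg adjg' (F.obj M) (hξ _) ≫ a'.map (bcPushA e adjg adjg' M) := by
  -- key identity
  have hK : adjg'.unit.app M ≫ G'.map (adj'.unit.app (L'.obj M)) ≫
      xiA adj adj' e (F'.obj (L'.obj M)) =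
      adj.unit.app M ≫ a.map (F.map (adjg'.unit.app M) ≫ e.hom.app (L'.obj M)) := by
    unfold xiA
    rw [Adjunction.homEquiv_unit]
    have h1 := adj.unit.naturality (G'.map (adj'.unit.app (L'.obj M)))
    simp only [Functor.id_obj, Functor.comp_obj, Functor.id_map, Functor.comp_map] at h1
    rw [reassoc_of% h1, ← a.map_comp]
    have h2 := e.hom.naturality (adj'.unit.app (L'.obj M))
    simp only [Functor.comp_obj, Functor.comp_map] at h2
    rw [reassoc_of% h2, ← G.map_comp, Adjunction.left_triangle_components, G.map_id,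
      Category.comp_id]
    have h3 := adj.unit.naturality (adjg'.unit.app M)
    simp only [Functor.id_obj, Functor.comp_obj, Functor.id_map, Functor.comp_map] at h3
    rw [reassoc_of% h3, ← a.map_comp]
  have := hξ
  have hN : inv (xiA adj adj' e (L.obj (F.obj M))) ≫ G'.map (a'.map (bcPushA e adjg adjg' M)) =
      a.map (G.map (bcPushA e adjg adjg' M)) ≫ inv (xiA adj adj' e (F'.obj (L'.obj M))) := by
    rw [IsIso.eq_comp_inv, Category.assoc, xiA_naturality, IsIso.inv_hom_id_assoc]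
  have hL : adj'.unit.app (L'.obj M) = L'.map (adjg'.unit.app M ≫
      G'.map (adj'.unit.app (L'.obj M))) ≫ adjg'.counit.app _ := by
    simp
  have hR : L'.map (adj.unit.app M) ≫
      bcMapA adj adj' e adjg adjg' (F.obj M) (hξ _) ≫ a'.map (bcPushA e adjg adjg' M) =
      L'.map (adj.unit.app M ≫ a.map (adjg.unit.app _) ≫ inv (xiA adj adj' e (L.obj (F.obj M))) ≫
        G'.map (a'.map (bcPushA e adjg adjg' M))) ≫ adjg'.counit.app _ := by
    unfold bcMapA
    simp
  rw [hL, hR]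
  congr 2
  rw [hN, ← a.map_comp_assoc, bcPushA_transpose, ← Category.assoc, ← hK]
  simp

theorem counit_compatA (adj : F ⊣ a) (adj' : F' ⊣ a') (e : G' ⋙ F ≅ F' ⋙ G)
    (adjg : L ⊣ G) (adjg' : L' ⊣ G') (hξ : ∀ M : CY', IsIso (xiA adj adj' e M)) (K : CY) :
    bcPushA e adjg adjg' (a.obj K) ≫ F'.map (bcMapA adj adj' e adjg adjg' K (hξ _)) ≫
      adj'.counit.app (L.obj K) = L.map (adj.counit.app K) := by
  have := hξ
  apply (adjg.homEquiv _ _).injective
  rw [Adjunction.homEquiv_unit, Adjunction.homEquiv_unit]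
  simp only [G.map_comp]
  have hb := bcPushA_transpose e adjg adjg' (a.obj K)
  rw [← Category.assoc (adjg.unit.app _), hb]
  have h1 := adjg.unit.naturality (adj.counit.app K)
  simp only [Functor.id_obj, Functor.comp_obj, Functor.id_map, Functor.comp_map] at h1
  rw [← h1]
  have h2 := e.hom.naturality (bcMapA adj adj' e adjg adjg' K (hξ _))
  simp only [Functor.comp_obj, Functor.comp_map] at h2
  rw [Category.assoc, ← reassoc_of% h2]
  -- now: F.map ηg' ≫ F.map (G'.map bcMap) ≫ e ≫ G.map ε' = ε_K ≫ ηg_K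
  rw [← F.map_comp_assoc, bcMapA_transpose, ← xiA_transpose adj adj' e (L.obj K), F.map_comp,
    Category.assoc, ← F.map_comp_assoc (inv (xiA adj adj' e (L.obj K))), IsIso.inv_hom_id,
    F.map_id, Category.id_comp]
  exact adj.counit_naturality (adjg.unit.app K)

end Groth.Agent.Lib.Helper6.BCMates
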