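import Groth.Prelude.Def_Cone

/-!
# Helper lemmas on the charts of the pointed affine cone `Cone.pointed` (helper6)
-/

set_option autoImplicit false
universe u
open CategoryTheory CategoryTheory.Limits AlgebraicGeometry

namespace Groth.Agent.Lib.Helper6.ConeLib

variable {R A : Type u} [CommRing R] [CommRing A] [Algebra R A] {𝒜 : ℕ → Submodule R A}
  [GradedAlgebra 𝒜]

theorem chart_ι {d : ℕ} {f : A} (hf : f ∈ 𝒜 d) (hd : 0 < d) :
    Cone.chart hf hd ≫ (Cone.pointed 𝒜).ι =
      Spec.map (CommRingCat.ofHom (algebraMap A (Localization.Away f))) :=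
  IsOpenImmersion.lift_fac _ _ _

instance chart_isOpenImmersion {d : ℕ} {f : A} (hf : f ∈ 𝒜 d) (hd : 0 < d) :
    IsOpenImmersion (Cone.chart hf hd) := by
  have : IsOpenImmersion (Cone.chart hf hd ≫ (Cone.pointed 𝒜).ι) := by
    rw [chart_ι]; infer_instance
  exact IsOpenImmersion.of_comp _ (Cone.pointed 𝒜).ι

theorem range_chart {d : ℕ} {f : A} (hf : f ∈ 𝒜 d) (hd : 0 < d) :
    Set.range (Cone.chart hf hd).base =
      (Cone.pointed 𝒜).ι.base ⁻¹' (PrimeSpectrum.basicOpen f : Set (PrimeSpectrum A)) := by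
  have hr : Set.range (Spec.map (CommRingCat.ofHom (algebraMap A (Localization.Away f)))).base =
      (PrimeSpectrum.basicOpen f : Set (PrimeSpectrum A)) :=
    PrimeSpectrum.localization_away_comap_range (Localization.Away f) f
  ext x
  constructor
  · rintro ⟨y, rfl⟩
    show ((Cone.pointed 𝒜).ι.base ((Cone.chart hf hd).base y)) ∈
      (PrimeSpectrum.basicOpen f : Set (PrimeSpectrum A))
    rw [← Scheme.Hom.comp_apply, chart_ι, ← hr]
    exact ⟨y, rfl⟩
  · intro hx
    have hx' : (Cone.pointed 𝒜).ι.base x ∈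
        Set.range (Spec.map (CommRingCat.ofHom (algebraMap A (Localization.Away f)))).base := by
      rw [hr]; exact hx
    obtain ⟨y, hy⟩ := hx'
    refine ⟨y, ?_⟩
    apply Subtype.ext
    change ((Cone.pointed 𝒜).ι.base ((Cone.chart hf hd).base y)) = _
    rw [← Scheme.Hom.comp_apply, chart_ι]
    exact hy

/-- Every point of the pointed cone lies in some chart. -/
theorem exists_chart (x : (Cone.pointed 𝒜 : Scheme.{u})) :
    ∃ (e : ℕ) (g : A) (he : 0 < e) (hg : g ∈ 𝒜 e), x ∈ Set.range (Cone.chart hg he).base := by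
  classical
  have hx : ¬ (((HomogeneousIdeal.irrelevant 𝒜).toIdeal : Set A) ⊆
      (((Cone.pointed 𝒜).ι.base x : PrimeSpectrum A).asIdeal : Set A)) := fun h =>
    x.2 ((PrimeSpectrum.mem_zeroLocus _ _).mpr h)
  rw [Set.not_subset] at hx
  obtain ⟨a, ha, hax⟩ := hx
  by_contra hcon
  push Not at hcon
  apply hax
  rw [← DirectSum.sum_support_decompose 𝒜 a]
  refine Ideal.sum_mem _ fun i _ => ?_
  by_cases hi : i = 0
  · subst hi
    have : (DirectSum.decompose 𝒜 a 0 : A) = 0 := ha
    rw [this]; exact zero_mem _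
  · have h := hcon i (DirectSum.decompose 𝒜 a i) (Nat.pos_of_ne_zero hi) (SetLike.coe_mem _)
    rw [range_chart] at h
    by_contra hmem
    exact h hmem

/-- The open cover of the pointed cone by its charts. -/
noncomputable def chartCover (𝒜 : ℕ → Submodule R A) [GradedAlgebra 𝒜] :
    (Cone.pointed 𝒜 : Scheme.{u}).OpenCover :=
  Scheme.Cover.mkOfCovers (Σ' (d : ℕ) (f : A), 0 < d ∧ f ∈ 𝒜 d)
    (fun i => Spec (CommRingCat.of (Localization.Away i.2.1)))
    (fun i => Cone.chart i.2.2.2 i.2.2.1)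
    (fun x => by
      obtain ⟨e, g, he, hg, y, hy⟩ := exists_chart x
      exact ⟨⟨e, g, he, hg⟩, y, hy⟩)
    (fun i => chart_isOpenImmersion i.2.2.2 i.2.2.1)

end Groth.Agent.Lib.Helper6.ConeLib
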