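import Mathlib.RingTheory.GradedAlgebra.Basic
import Mathlib.RingTheory.GradedAlgebra.Homogeneous.Ideal
import Mathlib.Algebra.GradedMulAction

/-!
# Helper lemmas on graded modules (helper6)
-/

set_option autoImplicit false
universe u

namespace Groth.Agent.Lib.Helper6.GrModLib

variable {R A : Type u} [CommRing R] [CommRing A] [Algebra R A] {𝒜 : ℕ → Submodule R A}
  [GradedAlgebra 𝒜]
variable {M : Type u} [AddCommGroup M] [Module R M] [Module A M] {ℳ : ℕ → Submodule R M}
  [DirectSum.Decomposition ℳ] [SetLike.GradedSMul 𝒜 ℳ]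

omit [GradedAlgebra 𝒜] [DirectSum.Decomposition ℳ] in
theorem smul_mem_graded {a : A} {m : M} {i j : ℕ} (ha : a ∈ 𝒜 i) (hm : m ∈ ℳ j) :
    a • m ∈ ℳ (i + j) :=
  SetLike.GradedSMul.smul_mem ha hm

theorem decompose_smul_of_mem {m : M} {i : ℕ} (hm : m ∈ ℳ i) (u : A) (j : ℕ) :
    (DirectSum.decompose ℳ (u • m) (j + i) : M) = (DirectSum.decompose 𝒜 u j : A) • m := by
  classical
  conv_lhs => rw [← DirectSum.sum_support_decompose 𝒜 u, Finset.sum_smul]
  rw [DirectSum.decompose_sum, DFinsupp.finsetSum_apply, AddSubmonoidClass.coe_finsetSum]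
  rw [Finset.sum_eq_single j]
  · exact DirectSum.decompose_of_mem_same ℳ (smul_mem_graded (SetLike.coe_mem _) hm)
  · intro k _ hkj
    exact DirectSum.decompose_of_mem_ne ℳ (smul_mem_graded (SetLike.coe_mem _) hm)
      (by intro h; exact hkj (by simpa using h))
  · intro hj
    rw [DFinsupp.notMem_support_iff.mp hj]
    simp

/-- If `u • m = 0` with `m` homogeneous and `u ∉ P`, some homogeneous component of
`u` is outside `P` and still kills `m`. (No homogeneity of `P` is needed.) -/
theorem exists_homog_ann {P : Ideal A} {m : M} {i : ℕ} (hm : m ∈ ℳ i)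
    {u : A} (hu : u ∉ P) (hum : u • m = 0) :
    ∃ j : ℕ, (DirectSum.decompose 𝒜 u j : A) ∉ P ∧ (DirectSum.decompose 𝒜 u j : A) • m = 0 := by
  classical
  by_contra hcon
  push Not at hcon
  apply hu
  rw [← DirectSum.sum_support_decompose 𝒜 u]
  refine Ideal.sum_mem _ fun j _ => ?_
  by_contra hj
  apply hcon j hj
  rw [← decompose_smul_of_mem hm u j, hum]
  simp

end Groth.Agent.Lib.Helper6.GrModLib
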