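import Groth.Prelude.Def_GrMod2
import Groth.Agent.Lib.Helper6.GrMod

/-!
# Helper lemmas on `GrTilde.tildeAt` (helper6)
-/

set_option autoImplicit false
universe u
open CategoryTheory AlgebraicGeometry TopologicalSpace

namespace Groth.Agent.Lib.Helper6.GrTildeLib

open Groth.Agent.Lib.Helper6.GrModLib

variable {R A : Type u} [CommRing R] [CommRing A] [Algebra R A] {𝒜 : ℕ → Submodule R A}
  [GradedAlgebra 𝒜]
variable {M : Type u} [AddCommGroup M] [Module R M] [Module A M] (ℳ : ℕ → Submodule R M)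

theorem mem_tildeAt (n : ℤ) (x : ProjectiveSpectrum 𝒜) {i j : ℕ} (m : ℳ i) (s : 𝒜 j)
    (hs : s.1 ∉ x.asHomogeneousIdeal) (h : (i : ℤ) = j + n ∨ m.1 = 0) :
    LocalizedModule.mk m.1 ⟨s.1, hs⟩ ∈ GrTilde.tildeAt 𝒜 ℳ n x := by
  rcases h with h | h
  · exact Submodule.subset_span ⟨i, j, m, s, hs, h, rfl⟩
  · rw [h, LocalizedModule.zero_mk]
    exact zero_mem _

variable [SetLike.GradedSMul 𝒜 ℳ]

/-- Every element of `tildeAt` is a single fraction. -/
theorem single_frac (n : ℤ) (p : ProjectiveSpectrum 𝒜) (q : GrTilde.LocMod 𝒜 (M := M) p)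
    (hq : q ∈ GrTilde.tildeAt 𝒜 ℳ n p) :
    ∃ (i j : ℕ) (m : ℳ i) (s : 𝒜 j) (hs : s.1 ∉ p.asHomogeneousIdeal),
      ((i : ℤ) = j + n ∨ m.1 = 0) ∧ q = LocalizedModule.mk m.1 ⟨s.1, hs⟩ := by
  induction hq using Submodule.span_induction with
  | mem q hq =>
    obtain ⟨i, j, m, s, hs, h, rfl⟩ := hq
    exact ⟨i, j, m, s, hs, Or.inl h, rfl⟩
  | zero =>
    refine ⟨0, 0, 0, ⟨1, SetLike.GradedOne.one_mem⟩,
      fun h => p.isPrime.ne_top ((Ideal.eq_top_iff_one _).mpr h), Or.inr rfl, ?_⟩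
    simp [LocalizedModule.zero_mk]
  | add q₁ q₂ _ _ ih₁ ih₂ =>
    obtain ⟨i, j, ⟨a, a_mem⟩, ⟨s, s_mem⟩, nina, ca, rfl⟩ := ih₁
    obtain ⟨i', j', ⟨b, b_mem⟩, ⟨t, t_mem⟩, ninb, cb, rfl⟩ := ih₂
    replace ca : (i : ℤ) = j + n ∨ a = 0 := ca
    replace cb : (i' : ℤ) = j' + n ∨ b = 0 := cb
    have nin : s * t ∉ p.asHomogeneousIdeal := fun h =>
      (p.isPrime.mem_or_mem h).elim nina ninb
    have key : LocalizedModule.mk a ⟨s, nina⟩ + LocalizedModule.mk b ⟨t, ninb⟩ =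
        (LocalizedModule.mk (t • a + s • b) ⟨s * t, nin⟩ : GrTilde.LocMod 𝒜 (M := M) p) := by
      rw [LocalizedModule.mk_add_mk]; rfl
    rw [key]
    have hsb : s • b ∈ ℳ (j + i') := smul_mem_graded s_mem b_mem
    have hta : t • a ∈ ℳ (j' + i) := smul_mem_graded t_mem a_mem
    rcases ca with ha | ha
    · rcases cb with hb | hb
      · have e : j' + i = j + i' := by omega
        exact ⟨j + i', j + j', ⟨t • a + s • b, add_mem (e ▸ hta) hsb⟩,
          ⟨s * t, SetLike.mul_mem_graded s_mem t_mem⟩, nin, Or.inl (by push_cast; omega), rfl⟩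
      · refine ⟨j' + i, j + j', ⟨t • a + s • b, ?_⟩,
          ⟨s * t, SetLike.mul_mem_graded s_mem t_mem⟩, nin, Or.inl (by push_cast; omega), rfl⟩
        rw [hb, smul_zero, add_zero]; exact hta
    · refine ⟨j + i', j + j', ⟨t • a + s • b, ?_⟩,
        ⟨s * t, SetLike.mul_mem_graded s_mem t_mem⟩, nin, ?_, rfl⟩
      · rw [ha, smul_zero, zero_add]; exact hsb
      · rcases cb with hb | hb
        · exact Or.inl (by push_cast; omega)
        · exact Or.inr (show t • a + s • b = 0 by rw [ha, hb, smul_zero, smul_zero, add_zero])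
  | smul c q _ ih =>
    obtain ⟨i, j, ⟨a, a_mem⟩, ⟨s, s_mem⟩, nina, ca, rfl⟩ := ih
    replace ca : (i : ℤ) = j + n ∨ a = 0 := ca
    obtain ⟨⟨k, ⟨r, r_mem⟩, ⟨t, t_mem⟩, ht⟩, rfl⟩ := HomogeneousLocalization.mk_surjective c
    have nin : t * s ∉ p.asHomogeneousIdeal := fun h =>
      (p.isPrime.mem_or_mem h).elim ht nina
    refine ⟨k + i, k + j, ⟨r • a, smul_mem_graded r_mem a_mem⟩,
      ⟨t * s, SetLike.mul_mem_graded t_mem s_mem⟩, nin, ?_, ?_⟩
    · rcases ca with ha | ha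
      · exact Or.inl (by push_cast; omega)
      · exact Or.inr (show r • a = 0 by rw [ha, smul_zero])
    · rw [GrTilde.a0_smul_def, HomogeneousLocalization.val_mk, LocalizedModule.mk_smul_mk]
      rfl

end Groth.Agent.Lib.Helper6.GrTildeLib
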