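import Groth.Prelude.Def_PCone

/-!
# Helper lemmas on the charts of `PCone.dom` (helper6)
-/

set_option autoImplicit false
universe u
open CategoryTheory CategoryTheory.Limits AlgebraicGeometry

namespace Groth.Agent.Lib.Helper6.PConeLib

variable {R A : Type u} [CommRing R] [CommRing A] [Algebra R A] {𝒜 : ℕ → Submodule R A}
  [GradedAlgebra 𝒜] {B : Type u} [CommRing B] [Algebra R B] {ℬ : ℕ → Submodule R B}
  [GradedAlgebra ℬ]

theorem chart_ι (φ : 𝒜 →+*ᵍ ℬ) {d : ℕ} {f : A} (hf : f ∈ 𝒜 d) (hd : 0 < d) :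
    PCone.chart φ hf hd ≫ (PCone.dom φ).ι = Proj.awayι ℬ (φ f) (φ.2 hf) hd :=
  IsOpenImmersion.lift_fac _ _ _

instance chart_isOpenImmersion (φ : 𝒜 →+*ᵍ ℬ) {d : ℕ} {f : A} (hf : f ∈ 𝒜 d)
    (hd : 0 < d) : IsOpenImmersion (PCone.chart φ hf hd) := by
  have : IsOpenImmersion (PCone.chart φ hf hd ≫ (PCone.dom φ).ι) := by
    rw [chart_ι]; infer_instance
  exact IsOpenImmersion.of_comp _ (PCone.dom φ).ι

theorem chart_apply (φ : 𝒜 →+*ᵍ ℬ) {d : ℕ} {f : A} (hf : f ∈ 𝒜 d) (hd : 0 < d)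
    (z : Spec (CommRingCat.of (HomogeneousLocalization.Away ℬ (φ f)))) :
    ((PCone.dom φ).ι.base ((PCone.chart φ hf hd).base z)) =
      (Proj.awayι ℬ (φ f) (φ.2 hf) hd).base z := by
  rw [← Scheme.Hom.comp_apply, chart_ι]

/-- Every point of `PCone.dom φ` lies in the range of some chart. -/
theorem exists_chart (φ : 𝒜 →+*ᵍ ℬ) (x : (PCone.dom φ : Scheme.{u})) :
    ∃ (e : ℕ) (g : A) (he : 0 < e) (hg : g ∈ 𝒜 e) (y : _),
      (PCone.chart φ hg he).base y = x := by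
  obtain ⟨⟨g, e, he, hg⟩, hxg⟩ := TopologicalSpace.Opens.mem_iSup.mp x.2
  rw [← Proj.opensRange_awayι ℬ (φ g) (φ.2 hg) he] at hxg
  obtain ⟨y, hy⟩ := hxg
  exact ⟨e, g, he, hg, y, Subtype.ext ((chart_apply φ hg he y).trans hy)⟩

/-- The open cover of `PCone.dom φ` by its charts. -/
noncomputable def chartCover (φ : 𝒜 →+*ᵍ ℬ) : (PCone.dom φ : Scheme.{u}).OpenCover :=
  Scheme.Cover.mkOfCovers (Σ' (d : ℕ) (f : A), 0 < d ∧ f ∈ 𝒜 d)
    (fun i => Spec (CommRingCat.of (HomogeneousLocalization.Away ℬ (φ i.2.1))))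
    (fun i => PCone.chart φ i.2.2.2 i.2.2.1)
    (fun x => by
      obtain ⟨e, g, he, hg, y, hy⟩ := exists_chart φ x
      exact ⟨⟨e, g, he, hg⟩, y, hy⟩)
    (fun i => chart_isOpenImmersion φ i.2.2.2 i.2.2.1)

end Groth.Agent.Lib.Helper6.PConeLib
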