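import Groth.Prelude.Def_CohB1
import Mathlib.AlgebraicGeometry.Morphisms.UnderlyingMap
import Mathlib.AlgebraicGeometry.PullbackCarrier

set_option autoImplicit false
universe u
open CategoryTheory CategoryTheory.Limits AlgebraicGeometry

namespace Groth.Agent.Lib.Helper6

theorem polyGrading_X_mem (n : ℕ) (R : Type u) [CommRing R] (i : Fin (n + 1)) :
    (MvPolynomial.X i : MvPolynomial (Fin (n + 1)) R) ∈ CohB1.polyGrading n R 1 :=
  MvPolynomial.isHomogeneous_X R i

/-- Evaluation at `(1, 0, …, 0)`, a retraction of `R → (R[X₀,…,Xₙ]_{X₀})₀`. -/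
noncomputable def awayRetr (n : ℕ) (R : Type u) [CommRing R] :
    HomogeneousLocalization.Away (CohB1.polyGrading n R) (MvPolynomial.X 0) →+* R :=
  (IsLocalization.Away.lift (MvPolynomial.X (0 : Fin (n + 1)))
      (g := MvPolynomial.eval (fun i : Fin (n + 1) => if i = 0 then (1 : R) else 0))
      (by simp)).comp
    (algebraMap (HomogeneousLocalization.Away (CohB1.polyGrading n R) (MvPolynomial.X 0))
      (Localization.Away (MvPolynomial.X (0 : Fin (n + 1)) : MvPolynomial (Fin (n + 1)) R)))

theorem awayRetr_comp (n : ℕ) (R : Type u) [CommRing R] (r : R) :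
    awayRetr n R (HomogeneousLocalization.fromZeroRingHom (CohB1.polyGrading n R) _
      (algebraMap R (CohB1.polyGrading n R 0) r)) = r := by
  simp only [awayRetr, RingHom.comp_apply]
  rw [HomogeneousLocalization.algebraMap_apply]
  change IsLocalization.Away.lift _ _ (Localization.mk _ 1) = r
  rw [Localization.mk_one_eq_algebraMap, IsLocalization.Away.lift_eq]
  simp [MvPolynomial.algebraMap_eq]

theorem toSpec_surjective (n : ℕ) (R : Type u) [CommRing R] :
    Surjective (CohB1.ProjSpace.toSpec n R) := by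
  let g : CommRingCat.of R ⟶ CommRingCat.of
      (HomogeneousLocalization.Away (CohB1.polyGrading n R) (MvPolynomial.X 0)) :=
    CommRingCat.ofHom (algebraMap R (CohB1.polyGrading n R 0)) ≫
      CommRingCat.ofHom (HomogeneousLocalization.fromZeroRingHom _ _)
  let ρ : CommRingCat.of
      (HomogeneousLocalization.Away (CohB1.polyGrading n R) (MvPolynomial.X 0)) ⟶
      CommRingCat.of R := CommRingCat.ofHom (awayRetr n R)
  have hgρ : g ≫ ρ = 𝟙 _ := by
    ext r
    exact awayRetr_comp n R r
  have hcomp : Proj.awayι (CohB1.polyGrading n R) (MvPolynomial.X 0)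
      (polyGrading_X_mem n R 0) Nat.one_pos ≫ CohB1.ProjSpace.toSpec n R = Spec.map g := by
    show Proj.awayι (CohB1.polyGrading n R) (MvPolynomial.X 0)
      (polyGrading_X_mem n R 0) Nat.one_pos ≫ (Proj.toSpecZero (CohB1.polyGrading n R) ≫
        Spec.map (CommRingCat.ofHom (algebraMap R (CohB1.polyGrading n R 0)))) = Spec.map g
    rw [← Category.assoc, Proj.awayι_toSpecZero, ← Spec.map_comp]
  have hsurj : Surjective (Spec.map g) := by
    constructor
    intro x
    refine ⟨(Spec.map ρ) x, ?_⟩
    rw [← Scheme.Hom.comp_apply, ← Spec.map_comp, hgρ, Spec.map_id]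
    rfl
  have : Surjective (Proj.awayι (CohB1.polyGrading n R) (MvPolynomial.X 0)
      (polyGrading_X_mem n R 0) Nat.one_pos ≫ CohB1.ProjSpace.toSpec n R) := by
    rw [hcomp]; exact hsurj
  exact Surjective.of_comp (Proj.awayι (CohB1.polyGrading n R) (MvPolynomial.X 0)
      (polyGrading_X_mem n R 0) Nat.one_pos) (CohB1.ProjSpace.toSpec n R)

theorem poly1_homog_eq (A : Type u) [CommRing A] (n : ℕ) (p : MvPolynomial (Fin 1) A)
    (hp : p ∈ CohB1.polyGrading 0 A n) :
    p = MvPolynomial.C (MvPolynomial.coeff (Finsupp.single 0 n) p) * MvPolynomial.X 0 ^ n := by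
  have hh : p.IsHomogeneous n := hp
  ext m
  rw [MvPolynomial.X_pow_eq_monomial, MvPolynomial.C_mul_monomial, mul_one,
    MvPolynomial.coeff_monomial]
  by_cases hm : Finsupp.single 0 n = m
  · rw [if_pos hm, hm]
  · rw [if_neg hm]
    apply hh.coeff_eq_zero
    intro hdeg
    apply hm
    rw [Finsupp.degree_eq_sum, Fin.sum_univ_one] at hdeg
    apply Finsupp.ext
    intro i
    fin_cases i
    simp [hdeg]

theorem toSpec_zero_isIso (A : Type u) [CommRing A] :
    IsIso (CohB1.ProjSpace.toSpec 0 A) := by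
  let 𝒜 := CohB1.polyGrading 0 A
  let g : CommRingCat.of A ⟶ CommRingCat.of
      (HomogeneousLocalization.Away (CohB1.polyGrading 0 A) (MvPolynomial.X 0)) :=
    CommRingCat.ofHom (algebraMap A (CohB1.polyGrading 0 A 0)) ≫
      CommRingCat.ofHom (HomogeneousLocalization.fromZeroRingHom _ _)
  have hgρ : g ≫ CommRingCat.ofHom (awayRetr 0 A) = 𝟙 _ := by
    ext r
    exact awayRetr_comp 0 A r
  have hginj : Function.Injective g := by
    intro a b hab
    have h1 := congrArg (awayRetr 0 A) hab
    have ha := awayRetr_comp 0 A a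
    have hb := awayRetr_comp 0 A b
    change awayRetr 0 A (HomogeneousLocalization.fromZeroRingHom _ _
      (algebraMap A (CohB1.polyGrading 0 A 0) a)) = awayRetr 0 A (HomogeneousLocalization.fromZeroRingHom _ _
      (algebraMap A (CohB1.polyGrading 0 A 0) b)) at h1
    rw [ha, hb] at h1
    exact h1
  have hgsurj : Function.Surjective g := by
    intro z
    obtain ⟨n, p, hp, rfl⟩ := HomogeneousLocalization.Away.mk_surjective (CohB1.polyGrading 0 A)
      (polyGrading_X_mem 0 A 0) z
    refine ⟨MvPolynomial.coeff (Finsupp.single 0 n) p, ?_⟩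
    apply HomogeneousLocalization.val_injective
    rw [HomogeneousLocalization.Away.val_mk]
    change Localization.mk (MvPolynomial.C (MvPolynomial.coeff (Finsupp.single 0 n) p)) 1 = _
    rw [Localization.mk_eq_mk_iff, Localization.r_iff_exists]
    refine ⟨1, ?_⟩
    have := poly1_homog_eq A (n • 1) p hp
    simp only [smul_eq_mul, mul_one] at this
    conv_rhs => rw [this]
    simp only [OneMemClass.coe_one, one_mul]
    ring
  have hgiso : IsIso g := by
    rw [ConcreteCategory.isIso_iff_bijective]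
    exact ⟨hginj, hgsurj⟩
  have hcomp : Proj.awayι (CohB1.polyGrading 0 A) (MvPolynomial.X 0)
      (polyGrading_X_mem 0 A 0) Nat.one_pos ≫ CohB1.ProjSpace.toSpec 0 A = Spec.map g := by
    show Proj.awayι (CohB1.polyGrading 0 A) (MvPolynomial.X 0)
      (polyGrading_X_mem 0 A 0) Nat.one_pos ≫ (Proj.toSpecZero (CohB1.polyGrading 0 A) ≫
        Spec.map (CommRingCat.ofHom (algebraMap A (CohB1.polyGrading 0 A 0)))) = Spec.map g
    rw [← Category.assoc, Proj.awayι_toSpecZero, ← Spec.map_comp]
  have htop : Proj.basicOpen (CohB1.polyGrading 0 A) (MvPolynomial.X 0) = ⊤ := by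
    rw [eq_top_iff]
    intro x _
    rw [Proj.mem_basicOpen]
    intro hx
    apply (x : ProjectiveSpectrum (CohB1.polyGrading 0 A)).not_irrelevant_le
    rw [HomogeneousIdeal.irrelevant_le]
    intro i hi q hq
    have hq' := poly1_homog_eq A i q hq
    change q ∈ (x : ProjectiveSpectrum (CohB1.polyGrading 0 A)).asHomogeneousIdeal.toIdeal
    rw [hq']
    apply Ideal.mul_mem_left
    obtain ⟨k, rfl⟩ : ∃ k, i = k + 1 := ⟨i - 1, by omega⟩
    rw [pow_succ]
    exact Ideal.mul_mem_left _ _ hx
  have hιiso : IsIso (Proj.awayι (CohB1.polyGrading 0 A) (MvPolynomial.X 0)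
      (polyGrading_X_mem 0 A 0) Nat.one_pos) := by
    rw [isIso_iff_isOpenImmersion_and_surjective]
    refine ⟨inferInstance, ⟨?_⟩⟩
    intro x
    have hx : x ∈ (Proj.awayι (CohB1.polyGrading 0 A) (MvPolynomial.X 0)
      (polyGrading_X_mem 0 A 0) Nat.one_pos).opensRange := by
      rw [Proj.opensRange_awayι, htop]; trivial
    exact hx
  have : IsIso (Proj.awayι (CohB1.polyGrading 0 A) (MvPolynomial.X 0)
      (polyGrading_X_mem 0 A 0) Nat.one_pos ≫ CohB1.ProjSpace.toSpec 0 A) := by
    rw [hcomp]; infer_instance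
  exact IsIso.of_isIso_comp_left (Proj.awayι (CohB1.polyGrading 0 A) (MvPolynomial.X 0)
      (polyGrading_X_mem 0 A 0) Nat.one_pos) (CohB1.ProjSpace.toSpec 0 A)

end Groth.Agent.Lib.Helper6
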